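import Mathlib
import Cfsg.Agent.Lib.Helper69.APQ.Defs

/-!
# APQ (S4150), package [M6C]

A permutation of type `3²` and a `5`-cycle on six points generate a `2`-transitive group.
(Direct proof; the primitivity package is not needed.)
-/

set_option autoImplicit false

namespace Cfsg.Agent.Lib.Helper24.APQ

open Equiv Cfsg.Agent.Lib.Helper69.APQ

universe u

theorem pkgM6C : PkgM6C.{u} := by
  intro β _ _ x y hcard hx hy
  have hycyc : y.IsCycle := by
    rw [← Equiv.Perm.card_cycleType_eq_one, hy]
    rfl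
  have hysupp : y.support.card = 5 := by
    rw [← Equiv.Perm.sum_cycleType, hy]
    rfl
  have hxsupp : x.support.card = 6 := by
    rw [← Equiv.Perm.sum_cycleType, hx]
    rfl
  have hxfix : ∀ b, x b ≠ b := by
    intro b
    have h1 : x.support = Finset.univ :=
      Finset.eq_univ_of_card _ (by rw [hxsupp, hcard])
    have hb : b ∈ x.support := by rw [h1]; exact Finset.mem_univ b
    exact Equiv.Perm.mem_support.mp hb
  obtain ⟨c, hc⟩ : ∃ c, c ∉ y.support := by
    by_contra hcon
    push Not at hcon
    have h1 : y.support = Finset.univ := Finset.eq_univ_iff_forall.mpr hcon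
    rw [h1, Finset.card_univ, hcard] at hysupp
    omega
  have hyc : y c = c := Equiv.Perm.notMem_support.mp hc
  have hsupp : ∀ a, a ≠ c → y a ≠ a := by
    intro a hac
    by_contra ha
    have hsub : y.support ⊆ Finset.univ \ {a, c} := by
      intro b hb
      simp only [Finset.mem_sdiff, Finset.mem_univ, true_and, Finset.mem_insert,
        Finset.mem_singleton]
      rintro (rfl | rfl)
      · exact (Equiv.Perm.mem_support.mp hb) ha
      · exact hc hb
    have h1 := Finset.card_le_card hsub
    rw [Finset.card_sdiff_of_subset (Finset.subset_univ _), Finset.card_univ, hcard,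
      Finset.card_pair hac, hysupp] at h1
    omega
  have hytr : ∀ a b, a ≠ c → b ≠ c → ∃ i : ℤ, (y ^ i) a = b := fun a b ha hb =>
    hycyc.sameCycle (hsupp a ha) (hsupp b hb)
  have hxG : x ∈ Subgroup.closure ({x, y} : Set (Perm β)) :=
    Subgroup.subset_closure (by simp)
  have hyG : y ∈ Subgroup.closure ({x, y} : Set (Perm β)) :=
    Subgroup.subset_closure (by simp)
  have hyi : ∀ i : ℤ, (y ^ i) c = c :=
    Equiv.Perm.zpow_apply_eq_self_of_apply_eq_self hyc
  have hto : ∀ a, ∃ g ∈ Subgroup.closure ({x, y} : Set (Perm β)), g a = c := by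
    intro a
    by_cases hac : a = c
    · exact ⟨1, Subgroup.one_mem _, by simp [hac]⟩
    · have hxc : x⁻¹ c ≠ c := by
        intro h
        apply hxfix c
        have h1 := congrArg x h
        simpa using h1.symm
      obtain ⟨i, hi⟩ := hytr a (x⁻¹ c) hac hxc
      refine ⟨x * y ^ i, Subgroup.mul_mem _ hxG (Subgroup.zpow_mem _ hyG i), ?_⟩
      rw [Equiv.Perm.mul_apply, hi]
      simp
  rw [MulAction.is_two_pretransitive_iff]
  intro a b a' b' hab hab'
  obtain ⟨g, hg, hga⟩ := hto a
  obtain ⟨g', hg', hga'⟩ := hto a'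
  have hgb : g b ≠ c := fun h => hab (g.injective (hga.trans h.symm))
  have hgb' : g' b' ≠ c := fun h => hab' (g'.injective (hga'.trans h.symm))
  obtain ⟨i, hi⟩ := hytr (g b) (g' b') hgb hgb'
  refine ⟨⟨g'⁻¹ * y ^ i * g, Subgroup.mul_mem _ (Subgroup.mul_mem _ (Subgroup.inv_mem _ hg')
    (Subgroup.zpow_mem _ hyG i)) hg⟩, ?_, ?_⟩
  · show (g'⁻¹ * y ^ i * g) a = a'
    rw [Equiv.Perm.mul_apply, Equiv.Perm.mul_apply, hga, hyi, ← hga']
    simp
  · show (g'⁻¹ * y ^ i * g) b = b'
    rw [Equiv.Perm.mul_apply, Equiv.Perm.mul_apply, hi]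
    simp

/-- the package in the shape announced by the coordinator (the hypothesis is not used) -/
theorem pkgM6C_of (_hP : PkgPrim.{u}) : PkgM6C.{u} := pkgM6C

end Cfsg.Agent.Lib.Helper24.APQ
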